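import Groth.Agent.Pi1.H391.Stmts2
import Mathlib.FieldTheory.IsAlgClosed.AlgebraicClosure
import Mathlib.RingTheory.Localization.FractionRing

/-!
# Contraction of the prime `(T_i)` of a Kummer algebra (subtask 680)
-/

set_option autoImplicit false

universe u

namespace Groth.Agent.Pi1.H583.KumPrimeMain

open Groth.Agent.Pi1.H390

/-- The contraction of the ideal `(T_i)` is `(t_i)`, for `(t_i)` prime. -/
theorem comap_span_T (R : Type u) [CommRing R] (ι : Type) (t : ι → R) (n : ι → ℕ)
    (hn : ∀ i, 1 ≤ n i) (i : ι) [hP : (Ideal.span {t i}).IsPrime] :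
    (Ideal.span {KumBasic.T t n i}).comap (algebraMap R (SGA1t.kummer R t n)) =
      Ideal.span {t i} := by
  apply le_antisymm
  · let Ω := AlgebraicClosure (FractionRing (R ⧸ Ideal.span {t i}))
    let f : R →+* Ω := (algebraMap (FractionRing (R ⧸ Ideal.span {t i})) Ω).comp
      ((algebraMap (R ⧸ Ideal.span {t i}) _).comp (Ideal.Quotient.mk _))
    have hf : RingHom.ker f = Ideal.span {t i} := by
      ext x
      rw [RingHom.mem_ker]
      simp only [f, RingHom.comp_apply]
      rw [map_eq_zero_iff _ (algebraMap (FractionRing (R ⧸ Ideal.span {t i})) Ω).injective,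
        map_eq_zero_iff _ (IsFractionRing.injective (R ⧸ Ideal.span {t i})
          (FractionRing (R ⧸ Ideal.span {t i}))), Ideal.Quotient.eq_zero_iff_mem]
    let _ : Algebra R Ω := f.toAlgebra
    have hroot : ∀ j, ∃ z : Ω, z ^ n j = algebraMap R Ω (t j) := fun j =>
      IsAlgClosed.exists_pow_nat_eq _ (hn j)
    choose z hz using hroot
    let φ : SGA1t.kummer R t n →ₐ[R] Ω := KumBasic.lift t n z hz
    have hzi : z i = 0 := by
      have h1 : z i ^ n i = 0 := by
        rw [hz i]
        have : t i ∈ RingHom.ker f := by rw [hf]; exact Ideal.mem_span_singleton_self _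
        exact this
      exact pow_eq_zero_iff (by have := hn i; omega) |>.mp h1
    have hle : Ideal.span {KumBasic.T t n i} ≤ RingHom.ker φ.toRingHom := by
      rw [Ideal.span_singleton_le_iff_mem, RingHom.mem_ker]
      change φ (KumBasic.T t n i) = 0
      rw [KumBasic.lift_T, hzi]
    intro x hx
    have h2 : φ (algebraMap R _ x) = 0 := hle hx
    rw [AlgHom.commutes] at h2
    rw [← hf]
    exact h2
  · rw [Ideal.span_singleton_le_iff_mem, Ideal.mem_comap, ← KumBasic.T_pow]
    exact Ideal.pow_mem_of_mem _ (Ideal.mem_span_singleton_self _) _ (hn i)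

theorem kumPrime : Groth.Agent.Pi1.H391.Stmts2.KumPrime.{u} := by
  intro R _ ι _ t n hn i _ _
  exact comap_span_T R ι t n hn i

end Groth.Agent.Pi1.H583.KumPrimeMain
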